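import Cfsg.Agent.H328.TW.Hat

/-!
# S3694-T8: fixed spaces and lifts (helper328)
-/

set_option autoImplicit false

namespace Cfsg.Agent.H328.TW

open Subgroup Cfsg Cfsg.Agent.H607.TW Cfsg.Agent.H296.TW Cfsg.Agent.H477.HC Cfsg.Agent.LieClassical.HermBasic
  Cfsg.Agent.H477.HC.CForm Module

universe u v

variable {G : Type u} [Group G] {F : Type} [Field F] [Fintype F] {q : ℕ} (hq : Nat.card F = q ^ 2) (n : ℕ)

/-- the action as a function -/
noncomputable def av (s : SU n F q) (v : Fin n → F) : Fin n → F :=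
  ((act hq n s : (CForm.hermF F hq n).iso) : (Fin n → F) ≃ₗ[F] (Fin n → F)) v

theorem av_mul (s t : SU n F q) (v : Fin n → F) : av hq n (s * t) v = av hq n s (av hq n t v) := by
  unfold av
  rw [map_mul]
  rfl

theorem av_one (v : Fin n → F) : av hq n 1 v = v := by
  unfold av
  rw [map_one]
  rfl

theorem av_mt (s : SU n F q) (v : Fin n → F) : av hq n s v = (mt (iSU n F q) s).mulVec v := rfl

theorem av_add (s : SU n F q) (v w : Fin n → F) : av hq n s (v + w) = av hq n s v + av hq n s w := map_add _ _ _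

theorem av_smul (s : SU n F q) (c : F) (v : Fin n → F) : av hq n s (c • v) = c • av hq n s v := map_smul _ _ _

theorem av_zero (s : SU n F q) : av hq n s 0 = 0 := map_zero _

theorem av_form (s : SU n F q) (v w : Fin n → F) : (CForm.hermF F hq n).B (av hq n s v) (av hq n s w) =
    (CForm.hermF F hq n).B v w := (CForm.hermF F hq n).iso_B _ v w

theorem av_inv (s : SU n F q) (v : Fin n → F) : av hq n s⁻¹ (av hq n s v) = v := by
  rw [← av_mul, inv_mul_cancel, av_one]

theorem av_inv' (s : SU n F q) (v : Fin n → F) : av hq n s (av hq n s⁻¹ v) = v := by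
  rw [← av_mul, mul_inv_cancel, av_one]

theorem av_ext {s t : SU n F q} (h : ∀ v, av hq n s v = av hq n t v) : s = t := act_ext hq n h

section model

variable {n} {N : Subgroup G} {π : SU n F q →* G} (hM : Model N (iSU n F q) π)

include hq hM

theorem ker_scalar {s : SU n F q} (hs : π s = 1) : ∃ c : F, ∀ v, av hq n s v = c • v := by
  obtain ⟨c, hc⟩ := (hM.ker s).1 hs
  refine ⟨c, fun v => ?_⟩
  rw [av_mt, hc, Matrix.smul_mulVec, Matrix.one_mulVec]

theorem ker_comm {s : SU n F q} (hs : π s = 1) (t : SU n F q) : s * t = t * s := by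
  have hq' : Nat.card F = q ^ 2 := hq
  obtain ⟨c, hc⟩ := ker_scalar hq hM hs
  apply av_ext hq n
  intro v
  rw [av_mul, av_mul, hc, hc, av_smul]

theorem ker_pe {r : ℕ} [Fact r.Prime] [CharP F r] {s : SU n F q} (hs : π s = 1) (hp : PE r s) : s = 1 := by
  obtain ⟨c, hc⟩ := ker_scalar hq hM hs
  obtain ⟨k, hk⟩ := hp
  have h2 := hM.two
  have h1 : ∀ m : ℕ, ∀ v, av hq n (s ^ m) v = c ^ m • v := by
    intro m
    induction m with
    | zero => intro v; rw [pow_zero, pow_zero, av_one, one_smul]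
    | succ m ih => intro v; rw [pow_succ, av_mul, hc, ih, smul_smul, pow_succ]
  have h3 : c ^ r ^ k = 1 := by
    have h4 := h1 (r ^ k) (Pi.single ⟨0, by omega⟩ 1)
    rw [hk, av_one] at h4
    have h5 := congrFun h4 ⟨0, by omega⟩
    rw [Pi.smul_apply, Pi.single_eq_same, smul_eq_mul, mul_one] at h5
    exact h5.symm
  have h4 : c = 1 := by
    have h5 : (c - 1) ^ r ^ k = 0 := by rw [sub_pow_char_pow, h3, one_pow, sub_self]
    exact sub_eq_zero.1 (pow_eq_zero_iff (pow_ne_zero k (Fact.out : r.Prime).ne_zero) |>.1 h5)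
  apply av_ext hq n
  intro v
  rw [hc, h4, one_smul, av_one]

end model

variable {n}

/-- the fixed space -/
noncomputable def Fix (π : SU n F q →* G) (r : ℕ) (X : Subgroup G) : Submodule F (Fin n → F) where
  carrier := {v | ∀ s ∈ hat π r X, av hq n s v = v}
  zero_mem' := fun s _ => av_zero hq n s
  add_mem' := fun {a b} ha hb s hs => by rw [av_add, ha s hs, hb s hs]
  smul_mem' := fun c a ha s hs => by rw [av_smul, ha s hs]

theorem mem_Fix {π : SU n F q →* G} {r : ℕ} {X : Subgroup G} {v : Fin n → F} :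
    v ∈ Fix hq π r X ↔ ∀ s ∈ hat π r X, av hq n s v = v := Iff.rfl

/-- a hat-invariant nonzero subspace contains nonzero fixed vectors -/
theorem Fix_inf_ne {π : SU n F q →* G} {r : ℕ} [hr : Fact r.Prime] [CharP F r] {X : Subgroup G}
    (hX : IsPGroup r (hat π r X)) {W : Submodule F (Fin n → F)} (hW : W ≠ ⊥)
    (hinv : ∀ s ∈ hat π r X, ∀ w ∈ W, av hq n s w ∈ W) : Fix hq π r X ⊓ W ≠ ⊥ := by
  classical
  let _ : MulAction (hat π r X) W :=
    { smul := fun s w => ⟨av hq n s w, hinv s s.2 w w.2⟩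
      one_smul := fun w => Subtype.ext (av_one hq n _)
      mul_smul := fun a b w => Subtype.ext (av_mul hq n _ _ _) }
  have hfin : Finite W := inferInstance
  obtain ⟨w₀, hw₀, hw₀0⟩ := (Submodule.ne_bot_iff W).1 hW
  have hdvd : r ∣ Nat.card W := by
    have h1 : Nat.card W = Nat.card F ^ finrank F W := natCard_eq_pow_finrank
    have h2 : finrank F W ≠ 0 := by
      intro h
      exact hW (Submodule.finrank_eq_zero.1 h)
    rw [h1]
    refine dvd_pow ?_ h2
    rw [Nat.card_eq_fintype_card]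
    exact (CharP.cast_eq_zero_iff F r _).1 (Nat.cast_card_eq_zero F)
  obtain ⟨w, hw, hw0⟩ := hX.exists_fixed_point_of_prime_dvd_card_of_fixed_point W hdvd (a := 0) (fun s =>
    Subtype.ext (av_zero hq n _))
  intro h
  apply hw0
  have h1 : (w : Fin n → F) ∈ Fix hq π r X ⊓ W := ⟨fun s hs => congrArg Subtype.val (hw ⟨s, hs⟩), w.2⟩
  rw [h] at h1
  have h2 : w = 0 := Subtype.ext ((Submodule.mem_bot F).1 h1)
  exact h2.symm

theorem Fix_anti {π : SU n F q →* G} {r : ℕ} {X Y : Subgroup G} (h : X ≤ Y) : Fix hq π r Y ≤ Fix hq π r X :=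
  fun v hv s hs => hv s (Subgroup.closure_mono (k := {s | π s ∈ Y ∧ PE r s})
    (fun t (ht : π t ∈ X ∧ PE r t) => (⟨h ht.1, ht.2⟩ : π t ∈ Y ∧ PE r t)) hs)

/-- the invariant totally isotropic subspace -/
noncomputable def UU (π : SU n F q →* G) (r : ℕ) (X : Subgroup G) : Submodule F (Fin n → F) :=
  Fix hq π r X ⊓ (CForm.hermF F hq n).perp (Fix hq π r X)

theorem UU_TS (π : SU n F q →* G) (r : ℕ) (X : Subgroup G) : (CForm.hermF F hq n).TS (UU hq π r X) :=
  ⟨fun w hw => hw.2 w hw.1, fun _ hw w' hw' => hw.2 w' hw'.1⟩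

theorem UU_ne {π : SU n F q →* G} {r : ℕ} [hr : Fact r.Prime] [CharP F r] {X : Subgroup G}
    (hX : IsPGroup r (hat π r X)) (hX1 : hat π r X ≠ ⊥) : UU hq π r X ≠ ⊥ := by
  refine Fix_inf_ne hq hX (fun h => hX1 ?_) (fun s hs w hw v hv => ?_)
  · have h1 : Fix hq π r X = ⊤ := by
      rw [← (CForm.hermF F hq n).perp_perp (Fix hq π r X), h]
      exact (Submodule.eq_top_iff').2 fun x y hy => by
        rw [(Submodule.mem_bot F).1 hy, (CForm.hermF F hq n).B_zero_right]
    rw [eq_bot_iff_forall]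
    intro s hs
    apply av_ext hq n
    intro v
    rw [av_one]
    have : v ∈ Fix hq π r X := by rw [h1]; trivial
    exact this s hs
  · have h1 := av_form hq n s w v
    rw [hv s hs] at h1
    rw [h1]
    exact hw v hv

/-- a lift of `g` -/
structure Lf (π : SU n F q →* G) (g : G) (σ : F ≃+* F) (f : (Fin n → F) → (Fin n → F)) : Prop where
  add : ∀ v w, f (v + w) = f v + f w
  smul : ∀ (c : F) v, f (c • v) = σ c • f v
  bij : Function.Bijective f
  form : ∀ v w, (CForm.hermF F hq n).B (f v) (f w) = σ ((CForm.hermF F hq n).B v w)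
  conj : ∀ s, ∃ s', (∀ v, f (av hq n s v) = av hq n s' (f v)) ∧ π s' = g * π s * g⁻¹

variable {hq}

theorem Lf.pow {f : (Fin n → F) → (Fin n → F)} {s s' : SU n F q} (h : ∀ v, f (av hq n s v) = av hq n s' (f v)) (m : ℕ) (v : Fin n → F) :
    f (av hq n (s ^ m) v) = av hq n (s' ^ m) (f v) := by
  induction m generalizing v with
  | zero => rw [pow_zero, pow_zero, av_one, av_one]
  | succ m ih => rw [pow_succ, av_mul, ih, h, pow_succ, av_mul]

theorem Lf.pe {π : SU n F q →* G} {g : G} {σ : F ≃+* F} {f : (Fin n → F) → (Fin n → F)} (hf : Lf hq π g σ f)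
    {s s' : SU n F q} (h : ∀ v, f (av hq n s v) = av hq n s' (f v)) {r : ℕ} (hs : PE r s) : PE r s' := by
  obtain ⟨k, hk⟩ := hs
  refine ⟨k, av_ext hq n fun v => ?_⟩
  obtain ⟨w, rfl⟩ := hf.bij.2 v
  rw [← Lf.pow h, hk, av_one, av_one]

theorem lf_self (π : SU n F q →* G) (s : SU n F q) : Lf hq π (π s) (RingEquiv.refl F) (av hq n s) where
  add := av_add hq n s
  smul := fun c v => av_smul hq n s c v
  bij := ⟨fun v w h => by rw [← av_inv hq n s v, h, av_inv], fun v => ⟨_, av_inv' hq n s v⟩⟩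
  form := fun v w => av_form hq n s v w
  conj := fun t => ⟨s * t * s⁻¹, fun v => by rw [av_mul, av_mul, av_inv], by rw [map_mul, map_mul, map_inv]⟩

theorem exists_lf (hn : 3 ≤ n) {N : Subgroup G} {π : SU n F q →* G} (hM : Model N (iSU n F q) π) (g : G) :
    ∃ σ f, Lf hq π g σ f := by
  have hF : Fintype.card F = q ^ 2 := by rw [← Nat.card_eq_fintype_card, hq]
  obtain ⟨B, σ, hB, hI⟩ := lift_su hF hn hM g
  rw [ind_tauP (by omega)] at hI
  have hmv : ∀ (x : Matrix (Fin n) (Fin n) F) (v : Fin n → F), (fun i => σ (x.mulVec v i)) =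
      (x.map σ).mulVec (fun i => σ (v i)) := by
    intro x v
    ext i
    simp only [Matrix.mulVec, dotProduct, map_sum, map_mul, Matrix.map_apply]
  have hbij : ∀ v, ((B⁻¹ : GL (Fin n) F) : Matrix (Fin n) (Fin n) F).mulVec ((B : Matrix (Fin n) (Fin n) F).mulVec v) =
      v := by
    intro v
    rw [Matrix.mulVec_mulVec, GL_inv_mul, Matrix.one_mulVec]
  have hbij' : ∀ v, (B : Matrix (Fin n) (Fin n) F).mulVec (((B⁻¹ : GL (Fin n) F) : Matrix (Fin n) (Fin n) F).mulVec v) =
      v := by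
    intro v
    rw [Matrix.mulVec_mulVec, GL_mul_inv, Matrix.one_mulVec]
  refine ⟨σ, fun v => (B : Matrix (Fin n) (Fin n) F).mulVec (fun i => σ (v i)), fun v w => ?_, fun c v => ?_,
    ⟨fun v w h => ?_, fun v => ?_⟩, fun v w => ?_, fun s => ?_⟩
  · rw [← Matrix.mulVec_add]
    congr 1
    ext i
    simp
  · rw [← Matrix.mulVec_smul]
    congr 1
    ext i
    simp
  · have h1 : (fun i => σ (v i)) = fun i => σ (w i) := by
      have h2 := congrArg (((B⁻¹ : GL (Fin n) F) : Matrix (Fin n) (Fin n) F).mulVec) h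
      change ((B⁻¹ : GL (Fin n) F) : Matrix (Fin n) (Fin n) F).mulVec
        ((B : Matrix (Fin n) (Fin n) F).mulVec (fun i => σ (v i))) =
        ((B⁻¹ : GL (Fin n) F) : Matrix (Fin n) (Fin n) F).mulVec
        ((B : Matrix (Fin n) (Fin n) F).mulVec (fun i => σ (w i))) at h2
      rwa [hbij, hbij] at h2
    ext i
    exact σ.injective (congrFun h1 i)
  · refine ⟨fun i => σ.symm (((B⁻¹ : GL (Fin n) F) : Matrix (Fin n) (Fin n) F).mulVec v i), ?_⟩
    have h1 : (fun i => σ (σ.symm (((B⁻¹ : GL (Fin n) F) : Matrix (Fin n) (Fin n) F).mulVec v i))) =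
        ((B⁻¹ : GL (Fin n) F) : Matrix (Fin n) (Fin n) F).mulVec v := by
      ext i
      rw [RingEquiv.apply_symm_apply]
    change (B : Matrix (Fin n) (Fin n) F).mulVec _ = v
    rw [h1, hbij']
  · have h1 : (CForm.hermF F hq n).B ((B : Matrix (Fin n) (Fin n) F).mulVec (fun i => σ (v i)))
        ((B : Matrix (Fin n) (Fin n) F).mulVec (fun i => σ (w i))) =
        (CForm.hermF F hq n).B (fun i => σ (v i)) (fun i => σ (w i)) := hB _ _
    rw [h1]
    change hermForm n F q _ _ = σ (hermForm n F q v w)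
    unfold hermForm
    rw [map_sum]
    refine Finset.sum_congr rfl fun i _ => ?_
    rw [map_mul, map_pow]
  · obtain ⟨s', h1, h2⟩ := hI s
    refine ⟨s', fun v => ?_, h2⟩
    rw [av_mt, av_mt, h1, hmv, tauP_apply, ← Matrix.mulVec_mulVec, ← Matrix.mulVec_mulVec, hbij]

section fix

variable {N : Subgroup G} {π : SU n F q →* G} (hM : Model N (iSU n F q) π) {r : ℕ} [hr : Fact r.Prime] [CharP F r]

include hq hM

omit [CharP F r] in
theorem hatm {X : Subgroup G} (hX : IsPGroup r X) {s : SU n F q} : s ∈ hat π r X ↔ π s ∈ X ∧ PE r s := by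
  have hfin : Finite (SU n F q) := inferInstance
  exact mem_hat (fun s hs t => ker_comm hq hM hs t) hX

omit [CharP F r] in
theorem hatp {X : Subgroup G} (hX : IsPGroup r X) : IsPGroup r (hat π r X) := by
  have hfin : Finite (SU n F q) := inferInstance
  exact hat_isPGroup (fun s hs t => ker_comm hq hM hs t) hX

omit [CharP F r] in
theorem hat_ne {X : Subgroup G} (hX : IsPGroup r X) (hXN : X ≤ N) (hX1 : X ≠ ⊥) : hat π r X ≠ ⊥ := by
  have hfin : Finite (SU n F q) := inferInstance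
  intro h
  apply hX1
  rw [eq_bot_iff_forall]
  intro x hx
  obtain ⟨s, hs, hs'⟩ := exists_lift (π := π) (pe_of_isPGroup hX hx) (by rw [hM.range]; exact hXN hx)
  have h1 : s ∈ hat π r X := (hatm (hq := hq) hM hX).2 ⟨by rw [hs]; exact hx, hs'⟩
  rw [h, mem_bot] at h1
  rw [← hs, h1, map_one]

theorem uniq {s t : SU n F q} (h : π s = π t) (hs : PE r s) (ht : PE r t) : s = t := by
  have hfin : Finite (SU n F q) := inferInstance
  exact pe_uniq (fun s hs t => ker_comm hq hM hs t) (fun s hs hp => ker_pe hq hM hs hp) h hs ht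

/-- **transport of fixed spaces** -/
theorem Lf.fix_iff {g : G} {σ : F ≃+* F} {f : (Fin n → F) → (Fin n → F)} (hf : Lf hq π g σ f) {X Y : Subgroup G}
    (hX : IsPGroup r X) (hY : IsPGroup r Y) (hXN : X ≤ N) (hXY : ∀ x, x ∈ X ↔ g * x * g⁻¹ ∈ Y) (v : Fin n → F) :
    v ∈ Fix hq π r X ↔ f v ∈ Fix hq π r Y := by
  have hfin : Finite (SU n F q) := inferInstance
  constructor
  · intro hv t ht
    obtain ⟨ht1, ht2⟩ := (hatm (hq := hq) hM hY).1 ht
    have hx : g⁻¹ * π t * g ∈ X := by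
      rw [hXY]
      have : g * (g⁻¹ * π t * g) * g⁻¹ = π t := by group
      rwa [this]
    obtain ⟨s, hs, hs'⟩ := exists_lift (π := π) (pe_of_isPGroup hX hx) (by rw [hM.range]; exact hXN hx)
    obtain ⟨s', h1, h2⟩ := hf.conj s
    have h3 : s' = t := uniq (hq := hq) hM (by rw [h2, hs]; group) (hf.pe h1 hs') ht2
    rw [← h3, ← h1, hv s ((hatm (hq := hq) hM hX).2 ⟨by rw [hs]; exact hx, hs'⟩)]
  · intro hv s hs
    obtain ⟨hs1, hs2⟩ := (hatm (hq := hq) hM hX).1 hs
    obtain ⟨s', h1, h2⟩ := hf.conj s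
    apply hf.bij.1
    rw [h1]
    exact hv s' ((hatm (hq := hq) hM hY).2 ⟨by rw [h2]; exact (hXY _).1 hs1, hf.pe h1 hs2⟩)

omit hM hr [CharP F r] in
theorem Lf.perp_iff {g : G} {σ : F ≃+* F} {f : (Fin n → F) → (Fin n → F)} (hf : Lf hq π g σ f)
    {W W' : Submodule F (Fin n → F)} (h : ∀ v, v ∈ W ↔ f v ∈ W') (v : Fin n → F) :
    v ∈ (CForm.hermF F hq n).perp W ↔ f v ∈ (CForm.hermF F hq n).perp W' := by
  constructor
  · intro hv y hy
    obtain ⟨w, rfl⟩ := hf.bij.2 y
    rw [hf.form, hv w ((h w).2 hy), map_zero]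
  · intro hv y hy
    have h1 := hv (f y) ((h y).1 hy)
    rw [hf.form] at h1
    exact (map_eq_zero σ).1 h1

theorem Lf.UU_iff {g : G} {σ : F ≃+* F} {f : (Fin n → F) → (Fin n → F)} (hf : Lf hq π g σ f) {X Y : Subgroup G}
    (hX : IsPGroup r X) (hY : IsPGroup r Y) (hXN : X ≤ N) (hXY : ∀ x, x ∈ X ↔ g * x * g⁻¹ ∈ Y) (v : Fin n → F) :
    v ∈ UU hq π r X ↔ f v ∈ UU hq π r Y := by
  have h1 := hf.fix_iff hM hX hY hXN hXY
  exact and_congr (h1 v) (hf.perp_iff h1 v)

end fix

end Cfsg.Agent.H328.TW
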