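import Cfsg.Agent.H328.TW.Siegel
import Cfsg.Agent.H328.TW.Loc
import Cfsg.Agent.H296.TW.ModSU
import Cfsg.Agent.H477.HC.Groups

/-!
# S3694-T8: unipotent lifts and their fixed spaces (helper328)
-/

set_option autoImplicit false

namespace Cfsg.Agent.H328.TW

open Subgroup Cfsg Cfsg.Agent.H607.TW Cfsg.Agent.H296.TW Cfsg.Agent.H477.HC Cfsg.Agent.LieClassical.HermBasic
  Cfsg.Agent.H477.HC.CForm

universe u v

section field

variable {F : Type} [Field F] [Fintype F] {q : ℕ}

theorem exists_norm_eq (hF : Fintype.card F = q ^ 2) {u : Fˣ} (hu : u ^ (q - 1) = 1) : ∃ b : Fˣ, b ^ (q + 1) = u := by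
  have hq : Nat.card F = q ^ 2 := by rw [Nat.card_eq_fintype_card, hF]
  have h2 := two_le_of_card hq
  have hle : (powMonoidHom (q + 1) : Fˣ →* Fˣ).range ≤ (powMonoidHom (q - 1) : Fˣ →* Fˣ).ker := by
    rintro _ ⟨b, rfl⟩
    rw [MonoidHom.mem_ker, powMonoidHom_apply, powMonoidHom_apply, ← pow_mul, ← card_units_eq hF]
    exact pow_card_eq_one'
  have hcard : Nat.card (powMonoidHom (q - 1) : Fˣ →* Fˣ).ker ≤
      Nat.card (powMonoidHom (q + 1) : Fˣ →* Fˣ).range := by
    rw [IsCyclic.card_powMonoidHom_ker, IsCyclic.card_powMonoidHom_range, card_units_eq hF,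
      Nat.gcd_eq_right (Dvd.intro _ rfl), Nat.gcd_eq_right (Dvd.intro_left _ rfl),
      Nat.mul_div_cancel_left _ (by omega)]
  have heq := Subgroup.eq_of_le_of_card_ge hle hcard
  have h3 : u ∈ (powMonoidHom (q + 1) : Fˣ →* Fˣ).range := by
    rw [heq]; exact hu
  obtain ⟨b, hb⟩ := h3
  exact ⟨b, hb⟩

theorem hm_herm (hq : Nat.card F = q ^ 2) (n : ℕ) : Hm (CForm.hermF F hq n) where
  ε := rfl
  Q := fun _ => rfl
  tr := fun c hc => exists_trace_eq hq hc
  nm := fun c hc => by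
    have hF : Fintype.card F = q ^ 2 := by rw [← Nat.card_eq_fintype_card, hq]
    have h2 := two_le_of_card hq
    change c ^ q = c at hc
    by_cases h0 : c = 0
    · exact ⟨0, by rw [zero_mul, h0]⟩
    obtain ⟨m, rfl⟩ : ∃ m, q = m + 1 := ⟨q - 1, by omega⟩
    obtain ⟨b, hb⟩ := exists_norm_eq hF (u := Units.mk0 c h0) (by
      apply Units.ext
      rw [Nat.add_sub_cancel, Units.val_pow_eq_pow_val, Units.val_mk0, Units.val_one]
      rw [pow_succ] at hc
      exact mul_right_cancel₀ h0 (by rw [hc, one_mul]))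
    refine ⟨b, ?_⟩
    have h3 := congrArg Units.val hb
    rw [Units.val_pow_eq_pow_val, Units.val_mk0] at h3
    change (b : F) * (b : F) ^ (m + 1) = c
    rw [← h3]
    ring
  ne := by
    have hF : Fintype.card F = q ^ 2 := by rw [← Nat.card_eq_fintype_card, hq]
    have h2 := two_le_of_card hq
    by_contra hcon
    push Not at hcon
    obtain ⟨g, hg⟩ := IsCyclic.exists_generator (α := Fˣ)
    have hord : orderOf g = (q + 1) * (q - 1) := by
      rw [orderOf_eq_card_of_forall_mem_zpowers hg, card_units_eq hF]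
    have h3 : g ^ (q - 1) = 1 := by
      obtain ⟨m, rfl⟩ : ∃ m, q = m + 1 := ⟨q - 1, by omega⟩
      have h4 := hcon (g : F)
      change (g : F) ^ (m + 1) = g at h4
      apply Units.ext
      rw [Nat.add_sub_cancel, Units.val_pow_eq_pow_val, Units.val_one]
      rw [pow_succ] at h4
      exact mul_right_cancel₀ g.ne_zero (by rw [h4, one_mul])
    have h4 := orderOf_dvd_of_pow_eq_one h3
    rw [hord] at h4
    have h5 := Nat.le_of_dvd (by omega) h4
    have h6 : 2 * (q - 1) ≤ (q + 1) * (q - 1) := Nat.mul_le_mul_right _ (by omega)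
    omega

end field

section det

variable {K : Type u} [Field K] {V : Type v} [AddCommGroup V] [Module K V] [FiniteDimensional K V]

theorem det_one_of_nilp {f : V →ₗ[K] V} (h : IsNilpotent (f - 1)) : LinearMap.det f = 1 := by
  have h1 : IsNilpotent (1 - f) := by
    rw [← neg_sub]
    exact h.neg
  have h2 := h1.charpoly_eq_X_pow_finrank
  have h3 := LinearMap.eval_charpoly (1 - f) (1 : K)
  rw [h2, Polynomial.eval_pow, Polynomial.eval_X, one_pow] at h3
  rw [h3, map_one]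
  congr 1
  abel

omit [FiniteDimensional K V] in
theorem siegel_nilp {F : CForm K V} {g : F.iso} (hg : IsSiegel F g) :
    (((g : V ≃ₗ[K] V) : V →ₗ[K] V) - 1) ^ 3 = 0 := by
  obtain ⟨u, b, α, hu, hub, -, hv⟩ := hg
  have h1 : ∀ v, (((g : V ≃ₗ[K] V) : V →ₗ[K] V) - 1) v = F.B v u • b - F.B v b • u + (α * F.B v u) • u := by
    intro v
    rw [LinearMap.sub_apply, Module.End.one_apply]
    change (g : V ≃ₗ[K] V) v - v = _
    rw [hv]
    abel
  have hbu := F.B_eq_zero hub
  ext v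
  rw [pow_succ, pow_succ, pow_one, Module.End.mul_apply, Module.End.mul_apply, h1 v, h1, h1]
  simp only [F.B_add_left, F.B_sub_left, F.B_smul_left, hu, hub, hbu]
  simp

theorem siegel_det {F : CForm K V} {g : F.iso} (hg : IsSiegel F g) :
    LinearMap.det ((g : V ≃ₗ[K] V) : V →ₗ[K] V) = 1 := det_one_of_nilp ⟨3, siegel_nilp hg⟩

end det

section act

variable {F : Type} [Field F] [Fintype F] {q : ℕ} (hq : Nat.card F = q ^ 2) (n : ℕ)

/-- the action of `SU` -/
noncomputable def act : SU n F q →* (CForm.hermF F hq n).iso :=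
  (isoGU hq n).toMonoidHom.comp ((Matrix.SpecialLinearGroup.toGL.comp (SU n F q).subtype).codRestrict (GU n F q)
    (fun A => A.2))

theorem act_apply (s : SU n F q) (v : Fin n → F) :
    ((act hq n s : (CForm.hermF F hq n).iso) : (Fin n → F) ≃ₗ[F] (Fin n → F)) v =
      (mt (iSU n F q) s).mulVec v := rfl

theorem act_ext {s t : SU n F q} (h : ∀ v, ((act hq n s : (CForm.hermF F hq n).iso) :
    (Fin n → F) ≃ₗ[F] (Fin n → F)) v = ((act hq n t : (CForm.hermF F hq n).iso) :
    (Fin n → F) ≃ₗ[F] (Fin n → F)) v) : s = t := by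
  have h1 : mt (iSU n F q) s = mt (iSU n F q) t := Matrix.ext_of_mulVec_single fun i => h _
  apply Subtype.ext
  apply Subtype.ext
  exact h1

theorem act_injective : Function.Injective (act hq n) := fun s t h => act_ext hq n fun v => by rw [h]

theorem exists_act {g : (CForm.hermF F hq n).iso}
    (hg : LinearMap.det ((g : (Fin n → F) ≃ₗ[F] (Fin n → F)) : (Fin n → F) →ₗ[F] (Fin n → F)) = 1) :
    ∃ s : SU n F q, act hq n s = g := by
  obtain ⟨A, rfl⟩ := (isoGU hq n).surjective g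
  have h1 : LinearMap.det (((isoGU hq n A : (CForm.hermF F hq n).iso) : (Fin n → F) ≃ₗ[F] (Fin n → F)) :
      (Fin n → F) →ₗ[F] (Fin n → F)) = ((A : GL (Fin n) F) : Matrix (Fin n) (Fin n) F).det := by
    rw [← LinearMap.det_toLin']
    congr 1
  rw [h1] at hg
  exact ⟨⟨⟨((A : GL (Fin n) F) : Matrix (Fin n) (Fin n) F), hg⟩, A.2⟩, congrArg (isoGU hq n)
    (Subtype.ext (Units.ext rfl))⟩

end act

/-- elements of `r`-power order -/
def PE {S : Type*} [Group S] (r : ℕ) (s : S) : Prop := ∃ k : ℕ, s ^ r ^ k = 1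

section hat

variable {G : Type u} [Group G] {S : Type v} [Group S] {π : S →* G} {r : ℕ}

theorem PE.inv {s : S} (h : PE r s) : PE r s⁻¹ := by
  obtain ⟨k, hk⟩ := h
  exact ⟨k, by rw [inv_pow, hk, inv_one]⟩

theorem PE.map {s : S} (h : PE r s) (f : S →* G) : PE r (f s) := by
  obtain ⟨k, hk⟩ := h
  exact ⟨k, by rw [← map_pow, hk, map_one]⟩

theorem PE.zpowers [hr : Fact r.Prime] {s : S} (h : PE r s) : IsPGroup r (Subgroup.zpowers s) := by
  obtain ⟨k, hk⟩ := h
  obtain ⟨j, -, hj⟩ := (Nat.dvd_prime_pow hr.out).1 (orderOf_dvd_of_pow_eq_one hk)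
  apply IsPGroup.of_card (n := j)
  rw [Nat.card_zpowers, hj]

theorem pe_of_isPGroup {X : Subgroup S} (hX : IsPGroup r X) {s : S} (hs : s ∈ X) : PE r s := by
  obtain ⟨k, hk⟩ := hX ⟨s, hs⟩
  exact ⟨k, congrArg Subtype.val hk⟩

theorem exists_lift [Finite S] [hr : Fact r.Prime] {x : G} (hx : PE r x) (hxr : x ∈ π.range) :
    ∃ s, π s = x ∧ PE r s := by
  obtain ⟨s, rfl⟩ := hxr
  obtain ⟨e, he⟩ := hx
  have ho : orderOf s ≠ 0 := (orderOf_pos s).ne'
  obtain ⟨a, m, hm, ham⟩ := Nat.exists_eq_pow_mul_and_not_dvd ho r hr.out.ne_one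
  have hcop : Nat.Coprime (r ^ e) m := Nat.Coprime.pow_left e ((Nat.Prime.coprime_iff_not_dvd hr.out).2 hm)
  obtain ⟨c, hc1, hc2⟩ := Nat.chineseRemainder hcop 1 0
  refine ⟨s ^ c, ?_, a, ?_⟩
  · rw [map_pow]
    have h1 : orderOf (π s) ∣ r ^ e := orderOf_dvd_of_pow_eq_one he
    have h2 : (π s) ^ c = (π s) ^ 1 := pow_eq_pow_iff_modEq.2 (hc1.of_dvd h1)
    rw [h2, pow_one]
  · rw [← pow_mul]
    apply orderOf_dvd_iff_pow_eq_one.1
    rw [ham, mul_comm c]
    exact Nat.mul_dvd_mul_left _ (Nat.modEq_zero_iff_dvd.1 hc2)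

theorem hat_mul [Finite S] [hr : Fact r.Prime] (hZ : ∀ s, π s = 1 → ∀ t, s * t = t * s) {X : Subgroup G}
    (hX : IsPGroup r X) {s t : S} (hs : π s ∈ X) (ht : π t ∈ X) (hs' : PE r s) (ht' : PE r t) : PE r (s * t) := by
  classical
  let K : Subgroup S := X.comap π
  let f : K →* X := (π.comp K.subtype).codRestrict X fun k => k.2
  have hfr : IsPGroup r f.range := hX.to_subgroup _
  have hnil : Group.IsNilpotent K := by
    have hfin : Finite f.range := Finite.of_surjective f.rangeRestrict f.rangeRestrict_surjective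
    have h1 : Group.IsNilpotent f.range := hfr.isNilpotent
    refine Subgroup.isNilpotent_of_ker_le_center f.rangeRestrict (fun k hk => ?_)
    rw [MonoidHom.ker_rangeRestrict, MonoidHom.mem_ker] at hk
    rw [mem_center_iff]
    intro k'
    apply Subtype.ext
    exact (hZ k (congrArg Subtype.val hk) k').symm
  let P : Sylow r K := default
  have hPn : (P : Subgroup K).Normal := by
    have htf := (Group.isNilpotent_of_finite_tfae (G := K)).out 0 3
    exact htf.1 hnil r hr P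
  have hmem : ∀ k : K, PE r k → k ∈ P := by
    intro k hk
    obtain ⟨Q, hQ⟩ := hk.zpowers.exists_le_sylow
    have h1 : Q = P := by
      have := Sylow.unique_of_normal P hPn
      exact Subsingleton.elim _ _
    rw [← h1]
    exact hQ (mem_zpowers k)
  have h1 : (⟨s, hs⟩ : K) ∈ P := hmem _ (by
    obtain ⟨k, hk⟩ := hs'
    exact ⟨k, Subtype.ext hk⟩)
  have h2 : (⟨t, ht⟩ : K) ∈ P := hmem _ (by
    obtain ⟨k, hk⟩ := ht'
    exact ⟨k, Subtype.ext hk⟩)
  obtain ⟨k, hk⟩ := P.isPGroup' ⟨_, (P : Subgroup K).mul_mem h1 h2⟩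
  exact ⟨k, congrArg Subtype.val (congrArg Subtype.val hk)⟩

/-- the group of the `r`-elements over `X` -/
def hat (π : S →* G) (r : ℕ) (X : Subgroup G) : Subgroup S := Subgroup.closure {s | π s ∈ X ∧ PE r s}

theorem mem_hat [Finite S] [hr : Fact r.Prime] (hZ : ∀ s, π s = 1 → ∀ t, s * t = t * s) {X : Subgroup G}
    (hX : IsPGroup r X) {s : S} : s ∈ hat π r X ↔ π s ∈ X ∧ PE r s := by
  refine ⟨fun h => ?_, fun h => subset_closure h⟩
  induction h using closure_induction with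
  | mem x hx => exact hx
  | one => exact ⟨by rw [map_one]; exact X.one_mem, 0, one_pow _⟩
  | mul x y _ _ hx hy => exact ⟨by rw [map_mul]; exact X.mul_mem hx.1 hy.1, hat_mul hZ hX hx.1 hy.1 hx.2 hy.2⟩
  | inv x _ hx => exact ⟨by rw [map_inv]; exact X.inv_mem hx.1, hx.2.inv⟩

theorem hat_isPGroup [Finite S] [hr : Fact r.Prime] (hZ : ∀ s, π s = 1 → ∀ t, s * t = t * s) {X : Subgroup G}
    (hX : IsPGroup r X) : IsPGroup r (hat π r X) := by
  intro s
  obtain ⟨k, hk⟩ := ((mem_hat hZ hX).1 s.2).2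
  exact ⟨k, Subtype.ext hk⟩

theorem pe_uniq [Finite S] [hr : Fact r.Prime] (hZ : ∀ s, π s = 1 → ∀ t, s * t = t * s)
    (hZ' : ∀ s, π s = 1 → PE r s → s = 1) {s t : S} (h : π s = π t) (hs : PE r s) (ht : PE r t) : s = t := by
  have h1 : PE r (s⁻¹ * t) := hat_mul hZ (X := Subgroup.zpowers (π s)) (hs.map π).zpowers
    (by rw [map_inv]; exact inv_mem (mem_zpowers _)) (by rw [← h]; exact mem_zpowers _) hs.inv ht
  have h2 := hZ' _ (by rw [map_mul, map_inv, h, inv_mul_cancel]) h1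
  exact (inv_mul_eq_one.1 h2)

end hat

end Cfsg.Agent.H328.TW
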