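import Cfsg.Agent.H477.HC.Main

/-!
# Siegel transformations of hermitian spaces and the invariant subspaces of a parabolic (S3694-T8, helper328)

* `Hm F` : `F` is hermitian, with surjective trace and norm;
* `exists_siegel` : the isometries `v ↦ v + (v,u) b - (v,b) u + α (v,u) u`;
* `inv_sub` : the only subspaces invariant under the stabilizer of the totally isotropic subspace `U` are `0`, `U`, `U^⊥`, `V`;
* `semi_unip` : a semilinear map commuting with all Siegel transformations stabilising `U` is linear, and a scalar times a unipotent map.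
-/

set_option autoImplicit false

namespace Cfsg.Agent.H328.TW

open Module Cfsg.Agent.H477.HC

universe u v

variable {K : Type u} [Field K] {V : Type v} [AddCommGroup V] [Module K V]

/-- hermitian forms with surjective trace and norm -/
structure Hm (F : CForm K V) : Prop where
  ε : F.ε = 1
  Q : ∀ v, F.Q v = F.B v v
  tr : ∀ c, F.σ c = c → ∃ t, t + F.σ t = c
  nm : ∀ c, F.σ c = c → ∃ a, a * F.σ a = c
  ne : ∃ a, F.σ a ≠ a

variable {F : CForm K V} (hF : Hm F)

include hF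

theorem Hm.symm (u v : V) : F.B u v = F.σ (F.B v u) := by
  rw [F.B_symm, hF.ε, one_mul]

theorem Hm.self (v : V) : F.σ (F.B v v) = F.B v v := (hF.symm v v).symm

theorem Hm.exists_skew : ∃ a : K, a ≠ 0 ∧ a + F.σ a = 0 := by
  obtain ⟨x, hx⟩ := hF.ne
  refine ⟨x - F.σ x, fun h => hx (sub_eq_zero.1 h).symm, ?_⟩
  rw [map_sub, F.σσ]
  ring

theorem Hm.exists_norm_one : ∃ a : K, a ≠ 1 ∧ a * F.σ a = 1 := by
  obtain ⟨x, hx⟩ := hF.ne
  have hx0 : x ≠ 0 := by
    rintro rfl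
    exact hx (map_zero _)
  have hx1 : F.σ x ≠ 0 := (map_ne_zero F.σ).2 hx0
  refine ⟨F.σ x / x, fun h => hx ((div_eq_one_iff_eq hx0).1 h), ?_⟩
  rw [map_div₀, F.σσ]
  field_simp

/-- **Siegel transformations** -/
theorem Hm.exists_siegel [FiniteDimensional K V] {u b : V} {α : K} (hu : F.B u u = 0) (hub : F.B u b = 0)
    (hα : α + F.σ α + F.B b b = 0) :
    ∃ g : F.iso, ∀ v, (g : V ≃ₗ[K] V) v = v + F.B v u • b - F.B v b • u + (α * F.B v u) • u := by
  have hbu := F.B_eq_zero hub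
  let f : V →ₗ[K] V :=
    { toFun := fun v => v + F.B v u • b - F.B v b • u + (α * F.B v u) • u
      map_add' := fun x y => by
        rw [F.B_add_left, F.B_add_left]
        module
      map_smul' := fun a x => by
        rw [F.B_smul_left, F.B_smul_left, RingHom.id_apply]
        module }
  have hfB : ∀ v w, F.B (f v) (f w) = F.B v w := by
    intro v w
    change F.B (v + F.B v u • b - F.B v b • u + (α * F.B v u) • u)
      (w + F.B w u • b - F.B w b • u + (α * F.B w u) • u) = F.B v w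
    simp only [F.B_add_left, F.B_add_right, F.B_sub_left, F.B_sub_right, F.B_smul_left, F.B_smul_right, hu, hub, hbu,
      map_mul]
    rw [hF.symm b w, hF.symm u w]
    linear_combination (F.B v u * F.σ (F.B w u)) * hα
  exact F.exists_iso f hfB (fun v => by rw [hF.Q, hF.Q, hfB])

omit hF

/-- the isometry `g` is a Siegel transformation -/
def IsSiegel (F : CForm K V) (g : F.iso) : Prop :=
  ∃ (u b : V) (α : K), F.B u u = 0 ∧ F.B u b = 0 ∧ α + F.σ α + F.B b b = 0 ∧
    ∀ v, (g : V ≃ₗ[K] V) v = v + F.B v u • b - F.B v b • u + (α * F.B v u) • u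

/-- `P` contains all Siegel transformations stabilising `U` -/
def Big (F : CForm K V) (P : Subgroup F.iso) (U : Submodule K V) : Prop :=
  ∀ g : F.iso, IsSiegel F g → (∀ v ∈ U, (g : V ≃ₗ[K] V) v ∈ U) → g ∈ P

/-- `W` is invariant under `P` -/
def PInv (F : CForm K V) (P : Subgroup F.iso) (W : Submodule K V) : Prop :=
  ∀ g ∈ P, ∀ w ∈ W, (g : V ≃ₗ[K] V) w ∈ W

theorem PInv.perp {P : Subgroup F.iso} {W : Submodule K V} (h : PInv F P W) : PInv F P (F.perp W) := by
  intro g hg v hv w hw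
  have h1 := h g⁻¹ (P.inv_mem hg) w hw
  have h2 : (g : V ≃ₗ[K] V) (((g⁻¹ : F.iso) : V ≃ₗ[K] V) w) = w := (g : V ≃ₗ[K] V).apply_symm_apply w
  have h3 := F.iso_B g v (((g⁻¹ : F.iso) : V ≃ₗ[K] V) w)
  rw [h2] at h3
  rw [h3]
  exact hv _ h1

theorem PInv.inf {P : Subgroup F.iso} {W W' : Submodule K V} (h : PInv F P W) (h' : PInv F P W') :
    PInv F P (W ⊓ W') := fun g hg w hw => ⟨h g hg w hw.1, h' g hg w hw.2⟩

variable {P : Subgroup F.iso} {U : Submodule K V}

include hF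

/-- the Siegel transformations in `P`, first type: `u ∈ U`, `b ∈ U^⊥` -/
theorem Hm.sieg_mem [FiniteDimensional K V] (hU : F.TS U) (hP : Big F P U) {u b : V} {α : K} (hu : u ∈ U)
    (hb : b ∈ F.perp U) (hα : α + F.σ α + F.B b b = 0) :
    ∃ g ∈ P, ∀ v, (g : V ≃ₗ[K] V) v = v + F.B v u • b - F.B v b • u + (α * F.B v u) • u := by
  have hub : F.B u b = 0 := F.B_eq_zero (hb u hu)
  obtain ⟨g, hg⟩ := hF.exists_siegel (hU.2 u hu u hu) hub hα
  refine ⟨g, hP g ⟨u, b, α, hU.2 u hu u hu, hub, hα, hg⟩ fun v hv => ?_, hg⟩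
  rw [hg, hU.2 v hv u hu, F.B_eq_zero (hb v hv)]
  simpa using hv

/-- second type: `u ∈ U`, `b` isotropic -/
theorem Hm.sieg_mem' [FiniteDimensional K V] (hU : F.TS U) (hP : Big F P U) {u b : V} (hu : u ∈ U)
    (hb : F.B b b = 0) (hub : F.B u b = 0) :
    ∃ g ∈ P, ∀ v, (g : V ≃ₗ[K] V) v = v + F.B v u • b - F.B v b • u := by
  obtain ⟨g, hg⟩ := hF.exists_siegel (α := 0) (hU.2 u hu u hu) hub (by rw [map_zero, hb]; ring)
  refine ⟨g, hP g ⟨u, b, 0, hU.2 u hu u hu, hub, by rw [map_zero, hb]; ring, hg⟩ fun v hv => ?_, fun v => ?_⟩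
  · rw [hg, hU.2 v hv u hu]
    simp only [zero_smul, mul_zero, add_zero]
    exact U.sub_mem hv (U.smul_mem _ hu)
  · rw [hg, zero_mul, zero_smul, add_zero]

/-- third type: transvections with isotropic centre in `U^⊥` -/
theorem Hm.tv_mem [FiniteDimensional K V] (hP : Big F P U) {z : V} {a : K} (hz : F.B z z = 0)
    (hzU : z ∈ F.perp U) (ha : a + F.σ a = 0) :
    ∃ g ∈ P, ∀ v, (g : V ≃ₗ[K] V) v = v + (a * F.B v z) • z := by
  obtain ⟨g, hg⟩ := hF.exists_siegel (u := z) (b := 0) (α := a) hz (by simp) (by simpa using ha)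
  refine ⟨g, hP g ⟨z, 0, a, hz, by simp, by simpa using ha, hg⟩ fun v hv => ?_, fun v => ?_⟩
  · rw [hg, F.B_eq_zero (hzU v hv)]
    simpa using hv
  · rw [hg]
    simp

/-- irreducibility on `U` -/
theorem Hm.irr_U [FiniteDimensional K V] (hU : F.TS U) (hP : Big F P U) {T : Submodule K V} (hT : T ≤ U) (hT0 : T ≠ ⊥)
    (hinv : PInv F P T) : T = U := by
  classical
  obtain ⟨t, ht, ht0⟩ := (Submodule.ne_bot_iff T).1 hT0
  refine le_antisymm hT fun u hu => ?_
  by_cases hdep : u ∈ K ∙ t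
  · exact (Submodule.span_singleton_le_iff_mem _ _).2 ht hdep
  obtain ⟨f, hf, hf'⟩ : ∃ f : Dual K V, f t = 1 ∧ f u = 0 := by
    have h1 : t ∉ K ∙ u := by
      intro h
      obtain ⟨c, rfl⟩ := Submodule.mem_span_singleton.1 h
      have hc : c ≠ 0 := by
        rintro rfl
        exact ht0 (zero_smul _ _)
      apply hdep
      exact Submodule.mem_span_singleton.2 ⟨c⁻¹, by rw [smul_smul, inv_mul_cancel₀ hc, one_smul]⟩
    obtain ⟨f, hf, hf'⟩ := Submodule.exists_dual_map_eq_bot_of_notMem h1 inferInstance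
    refine ⟨(f t)⁻¹ • f, ?_, ?_⟩
    · rw [LinearMap.smul_apply, smul_eq_mul, inv_mul_cancel₀ hf]
    · have h2 : f u ∈ (K ∙ u).map f := ⟨u, Submodule.mem_span_singleton_self u, rfl⟩
      rw [hf', Submodule.mem_bot] at h2
      rw [LinearMap.smul_apply, h2, smul_zero]
  obtain ⟨b, hb, hb1, -⟩ := F.exists_sing_dual (W' := ⊥) hU (fun v _ w hw => by
      rw [(Submodule.mem_bot K).1 hw, F.B_zero_right]) (f.comp U.subtype) (fun w hw => by
      rw [LinearMap.comp_apply, Submodule.subtype_apply, (Submodule.mem_bot K).1 hw, map_zero]) (by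
      intro h
      have := LinearMap.congr_fun h ⟨t, hT ht⟩
      change f t = 0 at this
      rw [hf] at this
      exact one_ne_zero this)
  have htb : F.B t b = 1 := by
    rw [← hf]
    exact (hb1 ⟨t, hT ht⟩).symm
  have hub : F.B u b = 0 := by
    rw [← hf']
    exact (hb1 ⟨u, hu⟩).symm
  obtain ⟨g, hg, hg'⟩ := hF.sieg_mem' hU hP hu hb.2 hub
  have h1 := hinv g hg t ht
  rw [hg', hU.2 t (hT ht) u hu, htb, zero_smul, add_zero, one_smul] at h1
  have h2 := T.sub_mem ht h1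
  rwa [sub_sub_cancel] at h2

/-- isotropic vectors -/
theorem Hm.exists_iso_vec [FiniteDimensional K V] {W M : Submodule K V} (hWM : W < M) (hW : F.perp M ≤ W) {w : V}
    (hw : w ∈ W) (hw' : w ∉ F.perp M) : ∃ z ∈ M, F.B z z = 0 ∧ F.B w z ≠ 0 := by
  obtain ⟨z₀, hz₀, hwz⟩ : ∃ z₀ ∈ M, F.B w z₀ ≠ 0 := by
    by_contra hcon
    push Not at hcon
    exact hw' hcon
  by_cases hzz : F.B z₀ z₀ = 0
  · exact ⟨z₀, hz₀, hzz, hwz⟩
  obtain ⟨m, hm, hmW⟩ := SetLike.exists_of_lt hWM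
  obtain ⟨y, hy⟩ : ∃ y, y = m - (F.B m z₀ / F.B w z₀) • w := ⟨_, rfl⟩
  have hyM : y ∈ M := by
    rw [hy]
    exact M.sub_mem hm (M.smul_mem _ (hWM.le hw))
  have hyW : y ∉ W := by
    intro h
    apply hmW
    have h1 := W.add_mem h (W.smul_mem (F.B m z₀ / F.B w z₀) hw)
    rwa [hy, sub_add_cancel] at h1
  have hyz : F.B y z₀ = 0 := by
    rw [hy, F.B_sub_left, F.B_smul_left, div_mul_cancel₀ _ hwz, sub_self]
  have hzy := F.B_eq_zero hyz
  -- a nonsingular vector of `M` orthogonal to `z₀`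
  obtain ⟨y', hy'M, hy'z, hy'0⟩ : ∃ y' ∈ M, F.B y' z₀ = 0 ∧ F.B y' y' ≠ 0 := by
    by_cases hyy : F.B y y = 0
    swap
    · exact ⟨y, hyM, hyz, hyy⟩
    obtain ⟨m₁, hm₁, hym⟩ : ∃ m₁ ∈ M, F.B y m₁ ≠ 0 := by
      by_contra hcon
      push Not at hcon
      exact hyW (hW hcon)
    obtain ⟨m', hm'⟩ : ∃ m', m' = m₁ - (F.B m₁ z₀ / F.B z₀ z₀) • z₀ := ⟨_, rfl⟩
    have hm'M : m' ∈ M := by
      rw [hm']
      exact M.sub_mem hm₁ (M.smul_mem _ hz₀)
    have hm'z : F.B m' z₀ = 0 := by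
      rw [hm', F.B_sub_left, F.B_smul_left, div_mul_cancel₀ _ hzz, sub_self]
    have hym' : F.B y m' ≠ 0 := by
      rw [hm', F.B_sub_right, F.B_smul_right, hyz, mul_zero, sub_zero]
      exact hym
    by_cases hmm : F.B m' m' = 0
    swap
    · exact ⟨m', hm'M, hm'z, hmm⟩
    obtain ⟨t, ht⟩ := hF.tr 1 (map_one _)
    refine ⟨y + (t / F.σ (F.B y m')) • m', M.add_mem hyM (M.smul_mem _ hm'M), ?_, ?_⟩
    · rw [F.B_add_left, F.B_smul_left, hyz, hm'z, mul_zero, add_zero]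
    · have hs : F.σ (F.B y m') ≠ 0 := (map_ne_zero F.σ).2 hym'
      have : F.B (y + (t / F.σ (F.B y m')) • m') (y + (t / F.σ (F.B y m')) • m') = 1 := by
        rw [F.B_add_left, F.B_add_right, F.B_add_right, F.B_smul_left, F.B_smul_left, F.B_smul_right, F.B_smul_right,
          hyy, hmm, hF.symm m' y, map_div₀, F.σσ, ← ht]
        field_simp
        ring
      rw [this]
      exact one_ne_zero
  have hzy' := F.B_eq_zero hy'z
  -- the isotropic vectors
  obtain ⟨l, hl⟩ := hF.nm (-(F.B z₀ z₀ / F.B y' y')) (by rw [map_neg, map_div₀, hF.self, hF.self])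
  have hl0 : l ≠ 0 := by
    rintro rfl
    rw [zero_mul] at hl
    have := neg_eq_zero.1 hl.symm
    rcases div_eq_zero_iff.1 this with h | h
    · exact hzz h
    · exact hy'0 h
  obtain ⟨ζ, hζ, hζ1⟩ := hF.exists_norm_one
  have key : ∀ x : K, x * F.σ x = -(F.B z₀ z₀ / F.B y' y') → F.B (z₀ + x • y') (z₀ + x • y') = 0 := by
    intro x hx
    rw [F.B_add_left, F.B_add_right, F.B_add_right, F.B_smul_left, F.B_smul_left, F.B_smul_right, F.B_smul_right,
      hzy', hy'z]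
    have h1 : x * F.σ x * F.B y' y' = -(F.B z₀ z₀) := by
      rw [hx, neg_mul, div_mul_cancel₀ _ hy'0]
    linear_combination h1
  by_cases h1 : F.B w (z₀ + l • y') = 0
  · refine ⟨z₀ + (ζ * l) • y', M.add_mem hz₀ (M.smul_mem _ hy'M), key _ ?_, fun h2 => hwz ?_⟩
    · rw [map_mul, ← hl]
      linear_combination (l * F.σ l) * hζ1
    · rw [F.B_add_right, F.B_smul_right] at h1 h2
      rw [map_mul] at h2
      have h3 : F.σ l * F.B w y' * (1 - F.σ ζ) = 0 := by linear_combination h1 - h2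
      rcases mul_eq_zero.1 h3 with h4 | h4
      · rwa [h4, add_zero] at h1
      · exfalso
        apply hζ
        have h5 : F.σ ζ = 1 := (sub_eq_zero.1 h4).symm
        have h6 := congrArg F.σ h5
        rwa [F.σσ, map_one] at h6
  · exact ⟨_, M.add_mem hz₀ (M.smul_mem _ hy'M), key l hl, h1⟩

/-- irreducibility on `U^⊥/U` -/
theorem Hm.irr_mid [FiniteDimensional K V] (hU : F.TS U) (hP : Big F P U) {W : Submodule K V} (h1 : U ≤ W)
    (h2 : W ≤ F.perp U) (hinv : PInv F P W) : W = U ∨ W = F.perp U := by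
  by_contra hcon
  push Not at hcon
  obtain ⟨hWU, hWM⟩ := hcon
  have hlt : W < F.perp U := lt_of_le_of_ne h2 hWM
  -- the second subspace
  have h3 : U ≤ F.perp W ⊓ F.perp U := by
    refine le_inf ?_ hU.le_perp
    have := F.perp_anti h2
    rwa [F.perp_perp] at this
  have hinv' : PInv F P (F.perp W) := hinv.perp
  have h4 : F.perp W ⊓ F.perp U < F.perp U := by
    refine lt_of_le_of_ne inf_le_right fun h => hWU ?_
    have h5 : F.perp U ≤ F.perp W := inf_eq_right.1 h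
    have h6 := F.perp_anti h5
    rw [F.perp_perp, F.perp_perp] at h6
    exact le_antisymm h6 h1
  have hnt : ∀ z ∈ F.perp U, F.B z z = 0 → ∀ W' : Submodule K V, PInv F P W' → (∃ w ∈ W', F.B w z ≠ 0) → z ∈ W' := by
    rintro z hz hzz W' hW' ⟨w, hw, hwz⟩
    obtain ⟨a, ha, ha'⟩ := hF.exists_skew
    obtain ⟨g, hg, hg'⟩ := hF.tv_mem hP hzz hz ha'
    have h5 := W'.sub_mem (hW' g hg w hw) hw
    rw [hg', add_sub_cancel_left] at h5
    have h6 := W'.smul_mem (a * F.B w z)⁻¹ h5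
    rwa [smul_smul, inv_mul_cancel₀ (mul_ne_zero ha hwz), one_smul] at h6
  obtain ⟨w, hw, hwU⟩ := SetLike.exists_of_lt (lt_of_le_of_ne h1 (Ne.symm hWU))
  obtain ⟨z, hz, hzz, hwz⟩ := hF.exists_iso_vec hlt (by rw [F.perp_perp]; exact h1) hw (by
    rw [F.perp_perp]; exact hwU)
  have hzW := hnt z hz hzz W hinv ⟨w, hw, hwz⟩
  have h5 : U ≠ F.perp W ⊓ F.perp U := by
    intro h
    apply hWM
    refine le_antisymm h2 fun m hm => ?_
    have h6 : F.perp W ⊓ F.perp U ≤ U := h.ge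
    -- by duality
    have h7 : F.perp U ≤ F.perp (F.perp W ⊓ F.perp U) := F.perp_anti h6
    have h8 := h7 hm
    have h9 : F.perp (F.perp W ⊓ F.perp U) ≤ W := by
      have h10 : F.perp W ⊓ F.perp U = F.perp (W ⊔ U) := by
        ext x
        refine ⟨fun hx y hy => ?_, fun hx => ⟨fun y hy => hx y (Submodule.mem_sup_left hy),
          fun y hy => hx y (Submodule.mem_sup_right hy)⟩⟩
        obtain ⟨y₁, hy₁, y₂, hy₂, rfl⟩ := Submodule.mem_sup.1 hy
        rw [F.B_add_right, hx.1 y₁ hy₁, hx.2 y₂ hy₂, add_zero]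
      rw [h10, F.perp_perp, sup_eq_left.2 h1]
    exact h9 h8
  obtain ⟨w', hw', hw'U⟩ := SetLike.exists_of_lt (lt_of_le_of_ne h3 h5)
  obtain ⟨z', hz', hzz', hwz'⟩ := hF.exists_iso_vec h4 (by rw [F.perp_perp]; exact h3) hw' (by
    rw [F.perp_perp]; exact hw'U)
  have hzW' := hnt z' hz' hzz' (F.perp W) hinv' ⟨w', hw'.1, hwz'⟩
  have e1 : F.B z z' = 0 := F.B_eq_zero (hzW' z hzW)
  have e2 : F.B z' z = 0 := hzW' z hzW
  have e3 : F.B (z + z') (z + z') = 0 := by
    rw [F.B_add_left, F.B_add_right, F.B_add_right, hzz, hzz', e1, e2]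
    simp
  have e4 : F.B w z' = 0 := F.B_eq_zero (hzW' w hw)
  have e5 : z + z' ∈ W := hnt _ ((F.perp U).add_mem hz hz') e3 W hinv ⟨w, hw, by
    rw [F.B_add_right, e4, add_zero]; exact hwz⟩
  have e6 : z' ∈ W := by
    have := W.sub_mem e5 hzW
    rwa [add_sub_cancel_left] at this
  exact hwz' (hw'.1 z' e6)

/-- **the invariant subspaces** -/
theorem Hm.inv_sub [FiniteDimensional K V] (hU : F.TS U) (hP : Big F P U) {W : Submodule K V}
    (hinv : PInv F P W) : W = ⊥ ∨ W = U ∨ W = F.perp U ∨ W = ⊤ := by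
  have key : ∀ W : Submodule K V, PInv F P W → ¬ W ≤ F.perp U → W = ⊤ := by
    intro W hinv hW
    obtain ⟨w, hw, hwU⟩ := Set.not_subset.1 hW
    obtain ⟨u₀, hu₀, hwu⟩ : ∃ u₀ ∈ U, F.B w u₀ ≠ 0 := by
      by_contra hcon
      push Not at hcon
      exact hwU hcon
    have h1 : u₀ ∈ W := by
      obtain ⟨a, ha, ha'⟩ := hF.exists_skew
      obtain ⟨g, hg, hg'⟩ := hF.tv_mem hP (hU.2 u₀ hu₀ u₀ hu₀) (hU.le_perp hu₀) ha'
      have h5 := W.sub_mem (hinv g hg w hw) hw
      rw [hg', add_sub_cancel_left] at h5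
      have h6 := W.smul_mem (a * F.B w u₀)⁻¹ h5
      rwa [smul_smul, inv_mul_cancel₀ (mul_ne_zero ha hwu), one_smul] at h6
    have h2 : F.perp U ≤ W := by
      intro b hb
      obtain ⟨α, hα⟩ := hF.tr (-F.B b b) (by rw [map_neg, hF.self])
      obtain ⟨g, hg, hg'⟩ := hF.sieg_mem hU hP hu₀ hb (α := α) (by rw [hα]; ring)
      have h3 := hinv g hg w hw
      rw [hg'] at h3
      have h4 : F.B w u₀ • b ∈ W := by
        have e : F.B w u₀ • b = (w + F.B w u₀ • b - F.B w b • u₀ + (α * F.B w u₀) • u₀) - w +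
            (F.B w b - α * F.B w u₀) • u₀ := by module
        rw [e]
        exact W.add_mem (W.sub_mem h3 hw) (W.smul_mem _ h1)
      have h6 := W.smul_mem (F.B w u₀)⁻¹ h4
      rwa [smul_smul, inv_mul_cancel₀ hwu, one_smul] at h6
    have h3 : F.perp W ≤ U := by
      have := F.perp_anti h2
      rwa [F.perp_perp] at this
    by_cases h4 : F.perp W = ⊥
    · rw [← F.perp_perp W, h4]
      exact (Submodule.eq_top_iff').2 fun x y hy => by rw [(Submodule.mem_bot K).1 hy, F.B_zero_right]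
    · exfalso
      apply hW
      rw [← hF.irr_U hU hP h3 h4 hinv.perp, F.perp_perp]
  by_cases h1 : W ≤ F.perp U
  swap
  · exact Or.inr (Or.inr (Or.inr (key W hinv h1)))
  by_cases h2 : F.perp W ≤ F.perp U
  swap
  · left
    have := key _ hinv.perp h2
    rw [← F.perp_perp W, this, Submodule.eq_bot_iff]
    exact fun x hx => F.nondeg x fun u => hx u trivial
  · have h3 : U ≤ W := by
      have := F.perp_anti h2
      rwa [F.perp_perp, F.perp_perp] at this
    rcases hF.irr_mid hU hP h3 h1 hinv with h | h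
    · exact Or.inr (Or.inl h)
    · exact Or.inr (Or.inr (Or.inl h))

/-- **semilinear maps commuting with all Siegel transformations stabilising `U`** -/
theorem Hm.semi_unip [FiniteDimensional K V] (hU : F.TS U) (hP : Big F P U) (hU0 : U ≠ ⊥) (h3 : 3 ≤ finrank K V)
    (τ : K ≃+* K) (f : V → V) (hadd : ∀ v w, f (v + w) = f v + f w) (hsmul : ∀ (c : K) v, f (c • v) = τ c • f v)
    (hcomm : ∀ g : F.iso, IsSiegel F g → g ∈ P → ∀ v, f ((g : V ≃ₗ[K] V) v) = (g : V ≃ₗ[K] V) (f v))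
    (hinj : Function.Injective f) :
    (∀ c, τ c = c) ∧ ∃ (u : V) (μ : K), u ∈ U ∧ u ≠ 0 ∧ μ ≠ 0 ∧ (∀ v, F.B (f v) u = μ * F.B v u) ∧ f u = μ • u ∧
      (∀ b ∈ F.perp U, ∃ c : K, f b = μ • b + c • u) ∧
      (∀ v, F.B v u = 0 → f v - μ • v ∈ U) := by
  classical
  obtain ⟨u, hu, hu0⟩ := (Submodule.ne_bot_iff U).1 hU0
  have huu := hU.2 u hu u hu
  obtain ⟨v₀, hv₀⟩ : ∃ v₀, F.B v₀ u = 1 := by
    by_contra hcon
    push Not at hcon
    apply hu0
    refine F.nondeg u fun x => ?_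
    by_contra hx
    have hx' : F.B x u ≠ 0 := fun h => hx (F.B_eq_zero h)
    refine hcon ((F.B x u)⁻¹ • x) ?_
    rw [F.B_smul_left, inv_mul_cancel₀ hx']
  have f0 : f 0 = 0 := by
    have := hadd 0 0
    rw [add_zero] at this
    exact left_eq_add.1 this
  -- transvections
  obtain ⟨a, ha, ha'⟩ := hF.exists_skew
  have ht : ∀ v, (τ a * τ (F.B v u)) • f u = (a * F.B (f v) u) • u := by
    intro v
    obtain ⟨g, hg⟩ := hF.exists_siegel (u := u) (b := 0) (α := a) huu (by simp) (by simpa using ha')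
    have hgS : IsSiegel F g := ⟨u, 0, a, huu, by simp, by simpa using ha', hg⟩
    have hgP : g ∈ P := hP g hgS fun v hv => by
      rw [hg, hU.2 v hv u hu]
      simpa using hv
    have h1 := hcomm g hgS hgP v
    rw [hg, hg] at h1
    simp only [smul_zero, add_zero, F.B_zero_right, zero_smul, sub_zero] at h1
    rw [hadd, hsmul, map_mul] at h1
    exact add_left_cancel h1
  obtain ⟨μ, hμ⟩ : ∃ μ : K, f u = μ • u := by
    have h1 := ht v₀
    rw [hv₀, map_one, mul_one] at h1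
    have h2 : τ a ≠ 0 := (map_ne_zero τ).2 ha
    refine ⟨(τ a)⁻¹ * (a * F.B (f v₀) u), ?_⟩
    rw [mul_smul, ← h1, smul_smul, inv_mul_cancel₀ h2, one_smul]
  have hμ0 : μ ≠ 0 := by
    rintro rfl
    rw [zero_smul, ← f0] at hμ
    exact hu0 (hinj hμ)
  have ht' : ∀ v, τ a * τ (F.B v u) * μ = a * F.B (f v) u := by
    intro v
    have h1 := ht v
    rw [hμ, smul_smul] at h1
    exact smul_left_injective K hu0 h1
  -- Siegel transformations
  have hs : ∀ b ∈ F.perp U, ∀ v, τ (F.B v u) • f b + (F.B (f v) b) • u =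
      F.B (f v) u • b + (τ (F.B v b) * μ) • u +
        ((Classical.choose (hF.tr (-F.B b b) (by rw [map_neg, hF.self]))) * F.B (f v) u -
          τ (Classical.choose (hF.tr (-F.B b b) (by rw [map_neg, hF.self])) * F.B v u) * μ) • u := by
    intro b hb v
    obtain ⟨α, hα⟩ : ∃ α, α = Classical.choose (hF.tr (-F.B b b) (by rw [map_neg, hF.self])) := ⟨_, rfl⟩
    have hα' : α + F.σ α + F.B b b = 0 := by
      have := Classical.choose_spec (hF.tr (-F.B b b) (by rw [map_neg, hF.self]))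
      rw [← hα] at this
      rw [this, neg_add_cancel]
    rw [← hα]
    have hub : F.B u b = 0 := F.B_eq_zero (hb u hu)
    obtain ⟨g, hg⟩ := hF.exists_siegel (u := u) (b := b) (α := α) huu hub hα'
    have hgS : IsSiegel F g := ⟨u, b, α, huu, hub, hα', hg⟩
    have hgP : g ∈ P := hP g hgS fun v hv => by
      rw [hg, hU.2 v hv u hu, F.B_eq_zero (hb v hv)]
      simpa using hv
    have h1 := hcomm g hgS hgP v
    have hneg : ∀ x, f (-x) = -f x := fun x => by
      have := hadd x (-x)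
      rw [add_neg_cancel, f0] at this
      exact (neg_eq_of_add_eq_zero_right this.symm).symm
    rw [hg, hg, sub_eq_add_neg, hadd, hadd, hadd, hneg, hsmul, hsmul, hsmul, hμ] at h1
    have h2 : τ (F.B v u) • f b = F.B (f v) u • b - F.B (f v) b • u + (α * F.B (f v) u) • u +
        τ (F.B v b) • μ • u - τ (α * F.B v u) • μ • u := by
      have h3 : f v + (τ (F.B v u) • f b) + -(τ (F.B v b) • μ • u) + τ (α * F.B v u) • μ • u =
          f v + (F.B (f v) u • b - F.B (f v) b • u + (α * F.B (f v) u) • u) := by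
        rw [h1]; abel
      have h4 : τ (F.B v u) • f b = (f v + (τ (F.B v u) • f b) + -(τ (F.B v b) • μ • u) + τ (α * F.B v u) • μ • u) -
          f v + τ (F.B v b) • μ • u - τ (α * F.B v u) • μ • u := by abel
      rw [h4, h3]
      abel
    rw [h2]
    module
  -- `τ = 1`
  have hfb : ∀ b ∈ F.perp U, ∃ c : K, f b = F.B (f v₀) u • b + c • u := by
    intro b hb
    have h1 := hs b hb v₀
    rw [hv₀, map_one, one_smul] at h1
    have h2 : f b - F.B (f v₀) u • b ∈ K ∙ u := by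
      rw [eq_sub_of_add_eq h1]
      have hu' := Submodule.mem_span_singleton_self (R := K) u
      rw [show ∀ A x y z : V, A + x + y - z - A = x + y - z from fun A x y z => by abel]
      exact Submodule.sub_mem _ (Submodule.add_mem _ (Submodule.smul_mem _ _ hu') (Submodule.smul_mem _ _ hu'))
        (Submodule.smul_mem _ _ hu')
    obtain ⟨c, hc⟩ := Submodule.mem_span_singleton.1 h2
    exact ⟨c, by rw [hc, add_sub_cancel]⟩
  have hκ : F.B (f v₀) u ≠ 0 := by
    intro h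
    have := ht' v₀
    rw [hv₀, map_one, mul_one, h, mul_zero] at this
    exact (mul_ne_zero ((map_ne_zero τ).2 ha) hμ0) this
  have hτ : ∀ c, τ c = c := by
    obtain ⟨b, hb, hbu⟩ : ∃ b ∈ F.perp U, b ∉ K ∙ u := by
      by_contra hcon
      push Not at hcon
      have h1 : F.perp U ≤ K ∙ u := hcon
      have h2 : F.perp (K ∙ u) ≤ K ∙ u := by
        have h4 := F.perp_anti h1
        rw [F.perp_perp] at h4
        exact (h4.trans hU.le_perp).trans h1
      have h5 : finrank K (F.perp (K ∙ u)) ≤ 1 := by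
        refine (Submodule.finrank_mono h2).trans ?_
        exact (finrank_span_singleton hu0).le
      have h6 : finrank K V ≤ finrank K (F.perp (K ∙ u)) + 1 := by
        have h7 : F.perp (K ∙ u) = LinearMap.ker (F.lf u) := by
          ext x
          refine ⟨fun h => h u (Submodule.mem_span_singleton_self u), fun h y hy => ?_⟩
          obtain ⟨c, rfl⟩ := Submodule.mem_span_singleton.1 hy
          rw [F.B_smul_right]
          have : F.B x u = 0 := h
          rw [this, mul_zero]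
        rw [h7]
        have h8 := LinearMap.finrank_range_add_finrank_ker (F.lf u)
        have h9 : finrank K (LinearMap.range (F.lf u)) ≤ 1 := by
          refine (Submodule.finrank_le _).trans ?_
          rw [finrank_self]
        omega
      omega
    intro c
    obtain ⟨c₁, hc₁⟩ := hfb b hb
    obtain ⟨c₂, hc₂⟩ := hfb (c • b) ((F.perp U).smul_mem c hb)
    rw [hsmul, hc₁] at hc₂
    by_contra hne
    apply hbu
    have h1 : ((τ c - c) * F.B (f v₀) u) • b = (c₂ - τ c * c₁) • u := by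
      have : (τ c * F.B (f v₀) u) • b + (τ c * c₁) • u = (F.B (f v₀) u * c) • b + c₂ • u := by
        rw [mul_smul, mul_smul, ← smul_add, hc₂, mul_smul]
      have h2 : ((τ c - c) * F.B (f v₀) u) • b = ((τ c * F.B (f v₀) u) • b + (τ c * c₁) • u) -
          (τ c * c₁) • u - (F.B (f v₀) u * c) • b := by module
      rw [h2, this]
      module
    have h2 : (τ c - c) * F.B (f v₀) u ≠ 0 := mul_ne_zero (sub_ne_zero.2 hne) hκ
    refine Submodule.mem_span_singleton.2 ⟨((τ c - c) * F.B (f v₀) u)⁻¹ * (c₂ - τ c * c₁), ?_⟩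
    rw [mul_smul, ← h1, smul_smul, inv_mul_cancel₀ h2, one_smul]
  have hBu : ∀ v, F.B (f v) u = μ * F.B v u := by
    intro v
    have h1 := ht' v
    rw [hτ, hτ] at h1
    have h2 : a * F.B (f v) u = a * (μ * F.B v u) := by rw [← h1]; ring
    exact mul_left_cancel₀ ha h2
  refine ⟨hτ, u, μ, hu, hu0, hμ0, hBu, hμ, fun b hb => ?_, fun v hv => ?_⟩
  · obtain ⟨c, hc⟩ := hfb b hb
    refine ⟨c, ?_⟩
    rw [hc, hBu, hv₀, mul_one]
  · rw [← F.perp_perp U]
    intro b hb
    have h1 := hs b hb v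
    rw [hv, hBu, hv] at h1
    simp only [map_zero, zero_smul, mul_zero, zero_add, zero_mul, sub_zero, add_zero] at h1
    have h2 : F.B (f v) b = τ (F.B v b) * μ := smul_left_injective K hu0 h1
    rw [F.B_sub_left, F.B_smul_left, h2, hτ]
    ring

/-- a group of isometries normalised by `P`, trivial on `U^⊥` -/
theorem Hm.exists_aniso [FiniteDimensional K V] (hU : F.TS U) (hP : Big F P U) (X : Subgroup F.iso)
    (hn : ∀ g ∈ P, ∀ x ∈ X, g * x * g⁻¹ ∈ X) (hX : ∀ x ∈ X, ∀ z ∈ F.perp U, (x : V ≃ₗ[K] V) z = z)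
    (hX1 : X ≠ ⊥) {v : V} (hv : v ∉ F.perp U) : ∃ x ∈ X, F.B ((x : V ≃ₗ[K] V) v - v) v ≠ 0 := by
  classical
  by_contra hcon
  push Not at hcon
  have hXU : ∀ x ∈ X, ∀ w, (x : V ≃ₗ[K] V) w - w ∈ U := by
    intro x hx w
    rw [← F.perp_perp U]
    intro z hz
    have h1 := F.iso_B x w z
    rw [hX x hx z hz] at h1
    rw [F.B_sub_left, h1, sub_self]
  have hH1 : ∀ w, (∀ x ∈ X, F.B ((x : V ≃ₗ[K] V) w - w) w = 0) → ∀ z ∈ F.perp U,
      ∀ x ∈ X, F.B ((x : V ≃ₗ[K] V) (w + z) - (w + z)) (w + z) = 0 := by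
    intro w hw z hz x hx
    rw [map_add, hX x hx z hz, add_sub_add_right_eq_sub, F.B_add_right, hw x hx,
      F.B_eq_zero (hz _ (hXU x hx w)), add_zero]
  have hH2 : ∀ w, (∀ x ∈ X, F.B ((x : V ≃ₗ[K] V) w - w) w = 0) → ∀ c : K,
      ∀ x ∈ X, F.B ((x : V ≃ₗ[K] V) (c • w) - (c • w)) (c • w) = 0 := by
    intro w hw c x hx
    rw [map_smul, ← smul_sub, F.B_smul_left, F.B_smul_right, hw x hx, mul_zero, mul_zero]
  have hH3 : ∀ w, (∀ x ∈ X, F.B ((x : V ≃ₗ[K] V) w - w) w = 0) → ∀ g ∈ P,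
      ∀ x ∈ X, F.B ((x : V ≃ₗ[K] V) ((g : V ≃ₗ[K] V) w) - ((g : V ≃ₗ[K] V) w)) ((g : V ≃ₗ[K] V) w) = 0 := by
    intro w hw g hg x hx
    have h1 := hw _ (by
      have := hn g⁻¹ (P.inv_mem hg) x hx
      rwa [inv_inv] at this)
    have h2 : (x : V ≃ₗ[K] V) ((g : V ≃ₗ[K] V) w) = (g : V ≃ₗ[K] V) (((g⁻¹ * x * g : F.iso) : V ≃ₗ[K] V) w) := by
      have h3 : g * (g⁻¹ * x * g) = x * g := by group
      exact (congrArg (fun y : F.iso => (y : V ≃ₗ[K] V) w) h3).symm
    rw [h2, ← map_sub, F.iso_B]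
    exact h1
  have key : ∀ w, ∀ x ∈ X, F.B ((x : V ≃ₗ[K] V) w - w) w = 0 := by
    intro w
    by_cases hw : w ∈ F.perp U
    · intro x hx
      rw [hX x hx w hw, sub_self, F.B_zero_left]
    obtain ⟨u₁, hu₁, hvu₁⟩ : ∃ u₁ ∈ U, F.B v u₁ ≠ 0 := by
      by_contra h
      push Not at h
      exact hv h
    obtain ⟨u₂, hu₂, hwu₂⟩ : ∃ u₂ ∈ U, F.B w u₂ ≠ 0 := by
      by_contra h
      push Not at h
      exact hw h
    obtain ⟨u, hu, hvu, hwu⟩ : ∃ u ∈ U, F.B v u ≠ 0 ∧ F.B w u ≠ 0 := by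
      by_cases h1 : F.B w u₁ = 0
      · by_cases h2 : F.B v u₂ = 0
        · exact ⟨u₁ + u₂, U.add_mem hu₁ hu₂, by rw [F.B_add_right, h2, add_zero]; exact hvu₁,
            by rw [F.B_add_right, h1, zero_add]; exact hwu₂⟩
        · exact ⟨u₂, hu₂, h2, hwu₂⟩
      · exact ⟨u₁, hu₁, hvu₁, h1⟩
    obtain ⟨u₀, hu₀⟩ : ∃ u₀, u₀ = F.σ (F.B v u)⁻¹ • u := ⟨_, rfl⟩
    have hu₀U : u₀ ∈ U := by rw [hu₀]; exact U.smul_mem _ hu
    have hvu₀ : F.B v u₀ = 1 := by rw [hu₀, F.B_smul_right, F.σσ, inv_mul_cancel₀ hvu]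
    have hwu₀ : F.B w u₀ ≠ 0 := by
      rw [hu₀, F.B_smul_right, F.σσ]
      exact mul_ne_zero (inv_ne_zero hvu) hwu
    obtain ⟨w', hw'⟩ : ∃ w', w' = (F.B w u₀)⁻¹ • w := ⟨_, rfl⟩
    have hwu' : F.B w' u₀ = 1 := by rw [hw', F.B_smul_left, inv_mul_cancel₀ hwu₀]
    have hww' : w = F.B w u₀ • w' := by rw [hw', smul_smul, mul_inv_cancel₀ hwu₀, one_smul]
    rw [hww']
    apply hH2
    by_cases hd : w' - v ∈ F.perp U
    · have := hH1 v hcon _ hd
      rwa [add_sub_cancel] at this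
    obtain ⟨z₁, hz₁, hdz⟩ : ∃ z₁ ∈ U, F.B (w' - v) z₁ ≠ 0 := by
      by_contra h
      push Not at h
      exact hd h
    obtain ⟨l, hl⟩ := hF.tr (-F.B (w' - v) (w' - v)) (by rw [map_neg, hF.self])
    obtain ⟨z, hz⟩ : ∃ z, z = (l * F.σ (F.B (w' - v) z₁)⁻¹) • z₁ := ⟨_, rfl⟩
    have hzU : z ∈ U := by rw [hz]; exact U.smul_mem _ hz₁
    have hdz' : F.B (w' - v) z = F.σ l := by
      rw [hz, F.B_smul_right, map_mul, F.σσ, mul_assoc, inv_mul_cancel₀ hdz, mul_one]
    have hbb : F.B (w' - v + z) (w' - v + z) = 0 := by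
      rw [F.B_add_left, F.B_add_right, F.B_add_right, hU.2 z hzU z hzU, hF.symm z, hdz', F.σσ]
      linear_combination hl
    have hub : F.B u₀ (w' - v + z) = 0 := by
      rw [F.B_add_right, hU.2 u₀ hu₀U z hzU, add_zero, hF.symm, F.B_sub_left, hwu', hvu₀, sub_self, map_zero]
    obtain ⟨g, hg, hg'⟩ := hF.sieg_mem' hU hP hu₀U hbb hub
    have h1 := hH3 v hcon g hg
    rw [hg', hvu₀, one_smul] at h1
    have h2 := hH1 _ h1 (F.B v (w' - v + z) • u₀ - z)
      ((F.perp U).sub_mem ((F.perp U).smul_mem _ (hU.le_perp hu₀U)) (hU.le_perp hzU))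
    have h3 : v + (w' - v + z) - F.B v (w' - v + z) • u₀ + (F.B v (w' - v + z) • u₀ - z) = w' := by abel
    rwa [h3] at h2
  -- polarisation
  apply hX1
  rw [Subgroup.eq_bot_iff_forall]
  intro x hx
  obtain ⟨c, hc⟩ := hF.ne
  have hpol : ∀ a b, F.B ((x : V ≃ₗ[K] V) a - a) b + F.B ((x : V ≃ₗ[K] V) b - b) a = 0 := by
    intro a b
    have h1 := key (a + b) x hx
    rw [map_add, add_sub_add_comm, F.B_add_left, F.B_add_right, F.B_add_right, key a x hx, key b x hx] at h1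
    linear_combination h1
  apply Subtype.ext
  ext a
  change (x : V ≃ₗ[K] V) a = a
  rw [← sub_eq_zero]
  refine F.nondeg _ fun b => ?_
  have h1 := hpol a b
  have h2 := hpol (c • a) b
  rw [map_smul, ← smul_sub, F.B_smul_left, F.B_smul_right] at h2
  have h3 : (c - F.σ c) * F.B ((x : V ≃ₗ[K] V) a - a) b = 0 := by linear_combination h2 - F.σ c * h1
  rcases mul_eq_zero.1 h3 with h4 | h4
  · exact absurd (sub_eq_zero.1 h4).symm hc
  · exact h4

end Cfsg.Agent.H328.TW
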